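import Cfsg.Agent.AG.VC1a
import Cfsg.Agent.AG.Defs
import Cfsg.Agent.JR.J2a
import Cfsg.Agent.BS.Red1

/-! Klein four Sylow `2`-subgroups: the principal block, and `O(C(S)) = 1`. -/

set_option autoImplicit false
set_option linter.unusedSectionVars false

namespace Cfsg.Agent.AG

open Subgroup Cfsg.Agent.FT Cfsg.Agent.MC Cfsg.Agent.H1
open scoped Classical ComplexConjugate commutatorElement

universe u
variable {G : Type u} [Group G] [Finite G] {K S X : Subgroup G} {t s x y g w : G}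
  {χ ψ θ θ' l a f : G → ℂ}

theorem vc_M3 (h : Sec K t) (hχ : χ ∈ Irr ⊤) (ha : a ∈ CF ⊤) (hi : ∀ x, IsIntegral ℤ (a x))
    (ho : ∀ x, a x ≠ 0 → Odd (orderOf x)) (hθ : θ ∈ Irr K) (hθ' : θ' ∈ Irr K) {b b' n n' : ℤ}
    (e : bq K t χ θ = b) (e' : bq K t χ θ' = b') (f : EqA 2 (∑ c ∈ els (K : Set G), a c * θ c) n)
    (f' : EqA 2 (∑ c ∈ els (K : Set G), a c * θ' c) n') :
    Even (b * b' * (deg θ' * n - deg θ * n')) := by
  obtain ⟨z, hz, e1⟩ := h.lemM' hχ ha hi ho hθ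
  obtain ⟨w, hw, e2⟩ := h.lemM' hχ ha hi ho hθ'
  obtain ⟨z', hz', f1⟩ := f
  obtain ⟨w', hw', f2⟩ := f'
  rw [e] at e1
  rw [e'] at e2
  have d1 := irr_one_ne_zero hθ
  have d2 := irr_one_ne_zero hθ'
  rw [eq_add_of_sub_eq f1, irr_one hθ] at e1
  rw [eq_add_of_sub_eq f2, irr_one hθ'] at e2
  rw [irr_one hθ] at d1
  rw [irr_one hθ'] at d2
  have i := fun n : ℤ => isIntegral_intCast' n
  have := int_dvd_of_isIntegral (a := ♯K * (b * b' * (deg θ' * n - deg θ * n'))) (b := 2)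
    (((i (deg θ * deg θ' * b)).mul hw).sub ((i (deg θ * deg θ' * b')).mul hz) |>.add
      (((i (♯K * b * b' * deg θ)).mul hw').sub ((i (♯K * b * b' * deg θ')).mul hz'))) (by
    push_cast
    field_simp at e1 e2
    linear_combination (deg θ : ℂ) * b * e2 - (deg θ' : ℂ) * b' * e1)
  exact (Int.even_mul.1 (even_iff_two_dvd.2 this)).resolve_left
    (by simpa [Int.even_coe_nat] using h.odd)

theorem vc_pair (hs : orderOf s = 2) (hn : s ∈ 𝐍(X)) (hi : ∀ x, IsIntegral ℤ (f x))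
    (hf : ∀ c ∈ X, f (s * c * s⁻¹) = f c) :
    EqA 2 (∑ c ∈ els (X : Set G), f c) (∑ c ∈ els ((X ⊓ 𝐂[s] : Subgroup G) : Set G), f c) := by
  rw [sum_els_diff (B := (X ⊓ 𝐂[s] : Subgroup G)) (fun _ h => h.1), eqA_iff_sub, add_sub_cancel_right]
  refine bg_pair _ (fun c => s * c * s⁻¹) _ hi (fun c hc => mem_els.2
    ⟨conj_mem_of_mem_normalizer hn (mem_els.1 hc).1, fun e => (mem_els.1 hc).2 ⟨(mem_els.1 hc).1, ?_⟩⟩)
    (fun c _ => ?_) (fun c hc => hf c (mem_els.1 hc).1) fun c hc e =>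
      (mem_els.1 hc).2 ⟨(mem_els.1 hc).1, mem_cent1_iff.2 (mul_inv_eq_iff_eq_mul.1 e).symm⟩
  · simpa [mul_assoc] using 𝐂[s].mul_mem (𝐂[s].mul_mem (𝐂[s].inv_mem (mem_cent1_self s)) e.2) (mem_cent1_self s)
  · rw [← mul_assoc, ← mul_assoc, bg_sq hs, mul_assoc, JR.inv_of_two hs, bg_sq hs, one_mul, mul_one]

/-- simple group with Klein four Sylow `2`-subgroup -/
structure VB (S : Subgroup G) (t s : G) : Prop where
  sim : Sim G
  syl : Syl 2 S ⊤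
  card : ♯S = 4
  tS : t ∈ S
  sS : s ∈ S
  t2 : orderOf t = 2
  s2 : orderOf s = 2
  ne : t ≠ s

instance vc_two : Fact (Nat.Prime 2) := ⟨Nat.prime_two⟩

namespace VB

variable (h : VB S t s)
include h

theorem SS : S ≤ 𝐂(S) := JR.AG.le_cent h.sim.isA Nat.prime_two h.syl.isPGroup
theorem fg : JR.FG t s := ⟨h.t2, h.s2, mem_cent_iff.1 (h.SS h.sS) t h.tS, h.ne⟩
theorem eq : JR.V4 t s = S :=
  eq_of_le_of_card_le (JR.V4_le.2 ⟨h.tS, h.sS⟩) (by rw [h.card, JR.card_V4 h.fg])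
theorem mem : x ∈ S ↔ x = 1 ∨ x = t ∨ x = s ∨ x = t * s := by rw [← h.eq, JR.mem_V4 h.fg]
theorem St : S ≤ 𝐂[t] := h.SS.trans (cent_le_cent1 h.tS)
theorem symm : VB S s t := ⟨h.sim, h.syl, h.card, h.sS, h.tS, h.s2, h.t2, h.ne.symm⟩
theorem third : VB S (t * s) t :=
  ⟨h.sim, h.syl, h.card, S.mul_mem h.tS h.sS, h.tS, h.fg.mul.u2, h.t2, h.fg.mul.ne.symm⟩
theorem centS : 𝐂(S) = 𝐂[t] ⊓ 𝐂[s] := by rw [← h.eq, JR.cent_V4]

theorem cS (a : g ∈ 𝐍(S)) (b : g ∈ 𝐂[t]) : g ∈ 𝐂(S) := by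
  obtain ⟨x, y, rfl, x1, y1, x2, y2⟩ := exists_piPart {2} g
  have xS : x ∈ S := (Syl.hall (h.syl.of_le le_normalizer le_top)).mem_of_nrm le_rfl (zpowers_le.2 a x1) x2
  refine mul_mem (h.SS xS) (JR.mem_of_sq_mem' (Nat.not_even_iff_odd.1 fun e =>
    (piNum_compl_singleton Nat.prime_two).1 y2 e.two_dvd) ?_)
  have y3 := zpowers_le.2 b y1
  have d1 := mul_inv_eq_iff_eq_mul.2 (mem_cent1_iff.1 y3)
  rw [h.centS]
  refine ⟨mul_mem y3 y3, mem_cent1_iff.2 (mul_inv_eq_iff_eq_mul.1 ?_)⟩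
  rw [show y * y * s * (y * y)⁻¹ = y * (y * s * y⁻¹) * y⁻¹ by group]
  rcases h.mem.1 (conj_mem_of_mem_normalizer (zpowers_le.2 a y1) h.sS) with e | e | e | e
  · exact absurd e (conj_ne_one (bg_ne h.s2))
  · exact absurd (by simpa using d1.trans e.symm) h.ne
  · rw [e, e]
  · rw [e, ← conj_mul, d1, e, ← mul_assoc, h.fg.tt, one_mul]

theorem pn : PNil 2 𝐂[t] :=
  Burnside_normal_complement (h.syl.of_le h.St le_top) fun _ a => h.cS a.2 a.1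
theorem sdp : SDP (Oo 𝐂[t]) S 𝐂[t] := h.pn.sdp (h.syl.of_le h.St le_top)
theorem sec : Sec (Oo 𝐂[t]) t :=
  ⟨h.t2, BS.odd_core' _, core_le _ _, fun _ a b => Hall.mem_of_nrm h.pn (core_nrm _ _).norm a
    ((piNum_compl_singleton Nat.prime_two).2 fun e => Nat.not_even_iff_odd.2 b (even_iff_two_dvd.2 e)),
    by rw [← h.sdp.card, h.card, mul_comm]⟩

theorem cnj (u : G) (hu : orderOf u = 2) : IsConj t u := by
  haveI := h.sim.simple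
  have perf : (⊤ : Subgroup G) ≤ ⁅(⊤ : Subgroup G), (⊤ : Subgroup G)⁆ := by
    rcases (nrm_top_iff.1 (der_nrm (⊤ : Subgroup G))).eq_bot_or_eq_top with a | a
    · exact absurd ⟨⟨fun x y => mem_cent_iff.1 (comm_iff_le_cent.1 (comm_iff_der.2 a) (mem_top y)) x
        (mem_top x)⟩⟩ h.sim.na
    · exact a.ge
  have k : ∀ {t s : G}, VB S t s → IsConj t s ∨ IsConj t (t * s) := fun {t s} h => by
    by_contra! a
    refine bg_ne h.t2 (mem_bot.1 ((JR.b_noZ h.syl h.SS perf).le ⟨h.tS, mem_cent_iff.2 fun g hg => ?_⟩))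
    rcases h.mem.1 (conj_mem_of_mem_normalizer hg.2 h.tS) with e | e | e | e
    · exact absurd e (conj_ne_one (bg_ne h.t2))
    · exact mul_inv_eq_iff_eq_mul.1 e
    · exact absurd (isConj_iff.2 ⟨g, e⟩) a.1
    · exact absurd (isConj_iff.2 ⟨g, e⟩) a.2
  have k1 := k h
  have k2 := k h.symm
  have k3 := k h.third
  rw [← h.fg.comm] at k2
  rw [mul_assoc, ← h.fg.comm, ← mul_assoc, h.fg.tt, one_mul] at k3
  have c : IsConj t s ∧ IsConj t (t * s) := by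
    rcases k1 with a | a
    · exact ⟨a, k3.elim (fun b => b.symm) fun b => a.trans b.symm⟩
    · exact ⟨k2.elim (fun b => b.symm) fun b => a.trans b.symm, a⟩
  obtain ⟨g, -, g2⟩ := h.syl.exists_cj_le (JR.two_zpowers hu) le_top
  refine IsConj.trans ?_ (isConj_iff.2 ⟨g, rfl⟩).symm
  rcases h.mem.1 (g2 (conj_mem_cj (mem_zpowers u))) with e | e | e | e
  · exact absurd e (conj_ne_one (bg_ne hu))
  exacts [e ▸ IsConj.refl _, e ▸ c.1, e ▸ c.2]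

theorem cjf_t (hθ : θ ∈ CF (Oo 𝐂[t])) : cjf t θ = θ :=
  cf_ext (cjf_mem_CF_norm (h.sec.nrm (mem_cent1_self t)) hθ) hθ fun x hx => by
    rw [cjf_apply, mul_assoc, mem_cent1_iff.1 (h.sec.cent hx), inv_mul_cancel_left]

theorem cjf_or (hθ : θ ∈ CF (Oo 𝐂[t])) (hg : g ∈ 𝐂[t]) :
    (g ∈ Oo 𝐂[t] ⊔ zpowers t ∧ cjf g θ = θ) ∨ cjf g (cjf s θ) = θ := by
  obtain ⟨k, k1, x, x1, rfl⟩ := h.sdp.mem_iff.1 hg
  rcases h.mem.1 x1 with rfl | rfl | rfl | rfl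
  · exact .inl ⟨mul_mem (mem_sup_left k1) (one_mem _), by rw [mul_one, cjf_id hθ k1]⟩
  · exact .inl ⟨mul_mem (mem_sup_left k1) (mem_sup_right (mem_zpowers _)), by
      rw [cjf_mul, h.cjf_t hθ, cjf_id hθ k1]⟩
  · exact .inr (by rw [← cjf_mul, mul_assoc, h.fg.uu, mul_one, cjf_id hθ k1])
  · exact .inr (by rw [← cjf_mul, mul_assoc, mul_assoc, h.fg.uu, mul_one, cjf_mul, h.cjf_t hθ, cjf_id hθ k1])

theorem cjf_all (hθ : θ ∈ CF (Oo 𝐂[t])) (e : cjf s θ = θ) (hg : g ∈ 𝐂[t]) : cjf g θ = θ :=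
  (h.cjf_or hθ hg).elim (·.2) fun a => by rwa [e] at a

theorem ex (hU : ¬ Oo 𝐂[t] ≤ 𝐂[s]) : ∃ x ∈ ⁅Oo 𝐂[t], zpowers s⁆, x ≠ 1 ∧ s * x * s⁻¹ = x⁻¹ := by
  obtain ⟨u, u1, u2⟩ := SetLike.not_le_iff_exists.1 hU
  refine ⟨⁅u, s⁆, commutator_mem_commutator u1 (mem_zpowers s), fun e => u2 (mem_cent1_iff.2
    (commutatorElement_eq_one_iff_mul_comm.1 e)), ?_⟩
  rw [commutatorElement_inv, commutatorElement_def, commutatorElement_def, JR.inv_of_two h.s2]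
  simp only [mul_assoc, h.fg.uu, mul_one]

theorem sec3 (hU : ¬ Oo 𝐂[t] ≤ 𝐂[s]) : Sec3 (Oo 𝐂[t]) (Oo 𝐂[t]) t s := by
  obtain ⟨x, a, b, c⟩ := h.ex hU
  have st := h.St h.sS
  refine ⟨h.sec, Nrm.refl _, der_le _, fun χ hχ l hl θ hθ h1 b b' e e' ho => ?_, fun l hl g hg => ?_, h.s2, st,
    h.ne, h.cnj, x, commutator_le_left' (zpowers_le.2 (h.sec.nrm st)) a, b, c⟩
  · rw [IrrK_self, Finset.mem_singleton] at hl h1
    have k : ∀ φ : G → ℂ, ∑ c ∈ els ((Oo 𝐂[t] : Subgroup G) : Set G), (if Odd (orderOf c) then 1 else 0) * φ c =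
        ♯(Oo 𝐂[t]) * dot (Oo 𝐂[t]) φ (triv _) := fun φ => by
      rw [dot_triv_right, mul_inv_cancel_left₀ (cardC_ne_zero _)]
      exact Finset.sum_congr rfl fun x hx => by rw [if_pos (JR.odd_orderOf h.sec.odd (mem_els.1 hx)), one_mul]
    have := vc_M3 h.sec (a := fun c => if Odd (orderOf c) then 1 else 0) hχ
      ⟨fun x hx => absurd (mem_top x) hx, fun g _ x => by simp only [Br.orderOf_cj]⟩
      (fun x => by split_ifs; exacts [isIntegral_one, isIntegral_zero])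
      (fun x hx => by_contra fun e => hx (if_neg e)) hθ (hl ▸ triv_mem_Irr _) e e' (n := 0) (n' := ♯(Oo 𝐂[t]))
      (by rw [k, dot_irr_triv hθ h1]; simpa using EqA.refl _ _)
      (by rw [k, hl, dot_triv_triv]; simpa using EqA.refl _ _)
    simpa [Int.even_mul, Int.not_even_iff_odd.2 ho, Nat.not_even_iff_odd.2 h.sec.odd,
      Nat.not_even_iff_odd.2 (odd_deg hθ h.sec.odd)] using this
  · rw [IrrK_self, Finset.mem_singleton] at hl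
    rw [hl, cjf_triv_norm (h.sec.nrm hg)]

theorem inv_cj (hw : orderOf w = 2) (h1 : w ∈ 𝐂[t]) (h2 : w ≠ t) :
    ∃ k ∈ Oo 𝐂[t], k * s * k⁻¹ = w ∨ k * (t * s) * k⁻¹ = w := by
  obtain ⟨g, g1, g2⟩ := (h.syl.of_le h.St le_top).exists_cj_le (JR.two_zpowers hw) (zpowers_le.2 h1)
  obtain ⟨x, x1, k, k1, rfl⟩ := h.sdp.mem_iff'.1 g1
  have a := conj_mem_of_mem_normalizer' (le_normalizer x1) (g2 (conj_mem_cj (mem_zpowers w)))
  rw [show x⁻¹ * (x * k * w * (x * k)⁻¹) * x = k * w * k⁻¹ by group] at a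
  refine ⟨k⁻¹, inv_mem k1, ?_⟩
  rcases h.mem.1 a with e | e | e | e
  · exact absurd e (conj_ne_one (bg_ne hw))
  · exact absurd (by
      rw [mul_inv_eq_iff_eq_mul, ← mem_cent1_iff.1 (h.sec.cent k1)] at e
      exact mul_left_cancel e) h2
  · exact .inl (by rw [← e]; group)
  · exact .inr (by rw [← e]; group)

theorem idx (hw : orderOf w = 2) (h1 : w ∈ 𝐂[t]) (h2 : w ≠ t) :
    𝐂[w].relIndex (Oo 𝐂[t]) = 𝐂[s].relIndex (Oo 𝐂[t]) := by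
  obtain ⟨k, k1, e | e⟩ := h.inv_cj hw h1 h2 <;> rw [← e, ← cj_cent1]
  all_goals nth_rewrite 1 [← cj_eq_of_mem k1]
  all_goals rw [relIndex_cj]
  rw [← inf_relIndex_right, ← inf_relIndex_right 𝐂[s]]
  congr 1
  ext x
  refine and_congr_left fun hx => ?_
  have := mem_cent1_iff.1 (h.sec.cent hx)
  change x ∈ 𝐂[t * s] ↔ x ∈ 𝐂[s]
  rw [mem_cent1_iff, mem_cent1_iff, ← mul_assoc, this, mul_assoc, mul_assoc, mul_right_inj]

theorem count : ∑ y ∈ els ((Oo 𝐂[t] : Subgroup G) : Set G), Br.prs (Br.cls ⊤ t) (t * y) =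
    2 * (𝐂[s].relIndex (Oo 𝐂[t]) : ℂ) ^ 2 := by
  set K := Oo 𝐂[t] with hK
  have c : ∀ a, a ∈ Br.cls ⊤ t ↔ orderOf a = 2 := fun a =>
    ⟨fun ⟨k, _, e⟩ => e ▸ JR.two_conj h.t2 k, fun e => (isConj_iff.1 (h.cnj a e)).imp fun _ e => ⟨mem_top _, e⟩⟩
  let I : Set G := {a | orderOf a = 2 ∧ a ∈ 𝐂[t] ∧ a ≠ t}
  have i1 : I.ncard = 2 * 𝐂[s].relIndex K := by
    have st := h.St h.sS
    have : I = {x | ∃ g ∈ K, g * s * g⁻¹ = x} ∪ {x | ∃ g ∈ K, g * (t * s) * g⁻¹ = x} := by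
      ext x
      refine ⟨fun a => ?_, ?_⟩
      · obtain ⟨k, k1, e⟩ := h.inv_cj a.1 a.2.1 a.2.2
        exact e.imp (fun e => ⟨k, k1, e⟩) fun e => ⟨k, k1, e⟩
      have k : ∀ w, JR.FG t w → ∀ g ∈ K, g * w * g⁻¹ ∈ I := fun w f g g1 =>
        ⟨JR.two_conj f.u2 g, mul_mem (mul_mem (h.sec.cent g1) (mem_cent1_iff.2 f.comm.symm))
          (inv_mem (h.sec.cent g1)), fun e => f.ne (by
            rw [mul_inv_eq_iff_eq_mul, ← mem_cent1_iff.1 (h.sec.cent g1)] at e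
            exact (mul_left_cancel e).symm)⟩
      rintro (⟨g, g1, rfl⟩ | ⟨g, g1, rfl⟩)
      exacts [k s h.fg g g1, k _ h.fg.mul g g1]
    rw [this, Set.ncard_union_eq, ← JR.a_orbit, ← JR.a_orbit, h.idx h.fg.mul.u2
      (mul_mem (mem_cent1_self t) st) h.fg.mul.ne.symm, two_mul]
    rw [Set.disjoint_left]
    rintro _ ⟨g, g1, rfl⟩ ⟨k, k1, e⟩
    have n : ∀ w ∈ 𝐂[t], ∀ g ∈ K, g * w * g⁻¹ * w⁻¹ ∈ K := fun w a g b => by
      rw [mul_assoc, mul_assoc, ← mul_assoc w]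
      exact K.mul_mem b (conj_mem_of_mem_normalizer (h.sec.nrm a) (K.inv_mem b))
    have := K.mul_mem (K.inv_mem (n _ (mul_mem (mem_cent1_self t) st) k k1)) (n s st g g1)
    rw [e] at this
    exact h.sec.tK (by simpa [mul_assoc] using this)
  simp only [Br.prs]
  rw [Finset.sum_comm, ← sum_els_subset (A := I) (fun a ha => (c a).2 ha.1) _ fun a ha ha' => ?_,
    Finset.sum_congr rfl (g := fun _ => (𝐂[s].relIndex K : ℂ)) fun a ha => ?_]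
  · rw [Finset.sum_const, card_els', i1]
    simp [sq, mul_assoc]
  · obtain ⟨a1, a2, a3⟩ := mem_els.1 ha
    have f : JR.FG t a := ⟨h.t2, a1, (mem_cent1_iff.1 a2).symm, a3.symm⟩
    have m := mul_mem (mem_cent1_self t) a2
    rw [Finset.sum_boole, ← h.idx f.mul.u2 m f.mul.ne.symm, ← BS.ncard_inverted h.sec.odd f.mul.u2 (h.sec.nrm m),
      ← card_els']
    congr 2
    ext y
    simp only [Finset.mem_filter, mem_els, SetLike.mem_coe, Set.mem_setOf_eq, c]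
    refine and_congr_right fun hy => ?_
    rw [JR.inv_of_two a1, ← mul_assoc, ← f.comm, JR.inv_of_two f.mul.u2, ← mul_eq_one_iff_eq_inv,
      mul_assoc (t * a * y)]
    exact ⟨JR.sq_of_two, fun e => JR.two_of_sq e fun e' => JR.not_mem_of_odd h.sec.odd f.mul.u2
      (eq_inv_of_mul_eq_one_left e' ▸ K.inv_mem hy)⟩
  · refine Finset.sum_eq_zero fun y hy => if_neg fun e => ha' ?_
    replace hy := mem_els.1 hy
    have a1 := (c a).1 ha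
    have e1 := (c _).1 e
    rw [JR.inv_of_two a1] at e1
    have e3 : a * (t * y) * a⁻¹ = t * y⁻¹ := by
      rw [JR.inv_of_two a1, eq_inv_of_mul_eq_one_left (show a * (t * y) * a * (t * y) = 1 by
        rw [mul_assoc]; exact JR.sq_of_two e1), mul_inv_rev, JR.inv_of_two h.t2,
        mem_cent1_iff.1 (h.sec.cent (K.inv_mem hy))]
    refine ⟨a1, h.sec.ti (K.inv_mem hy) hy e3, fun e => JR.not_mem_of_odd h.sec.odd e1 ?_⟩
    rwa [e, ← mul_assoc, h.fg.tt, one_mul]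

theorem principal (hU : ¬ Oo 𝐂[t] ≤ 𝐂[s]) :
    ∃ y₁ y₂ y₃ : ℤ, y₁ % 4 = 1 ∧ y₂ % 4 = 1 ∧ y₃ % 4 = 1 ∧ 1 + y₁ + y₂ + y₃ = 0 ∧
      (y₁ ≤ -7 ∨ 5 ≤ y₁) ∧ (y₂ ≤ -7 ∨ 5 ≤ y₂) ∧ (y₃ ≤ -7 ∨ 5 ≤ y₃) ∧
      ((𝐂[t]).index : ℤ) * ((y₁ + 1) * (y₂ + 1) * (y₃ + 1)) =
        8 * ((𝐂[s]).relIndex (Oo 𝐂[t]) : ℤ) ^ 2 * (y₁ * y₂ * y₃) := by
  haveI := h.sim.simple
  obtain ⟨V, w1, w2⟩ := (h.sec3 hU).cases (triv_mem_IrrK le_rfl)
  obtain ⟨X, x1, x2, x3, -, x4⟩ := w2.resolve_left fun a => a.1 rfl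
  obtain ⟨j, x4, x5⟩ := x4 rfl
  have k : bq (Oo 𝐂[t]) t (Br.prs (Br.cls ⊤ t)) (triv (Oo 𝐂[t])) =
      ♯(⊤ : Subgroup G) / (♯(⊤ ⊓ 𝐂[t] : Subgroup G)) ^ 2 * V := by
    rw [← w1, cf_sum_irr (Br.prs_CF (mem_top t)), bq_sum, Finset.mul_sum]
    exact Finset.sum_congr rfl fun χ hχ => by rw [Br.dot_prs (mem_top t) (bg_sq h.t2) hχ]; ring
  rw [bq, dot_triv_right, h.count, top_inf_eq, card_top, ← 𝐂[t].card_mul_index, h.sec.card] at k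
  have k2 : ((𝐂[t]).index : ℚ) * V = 8 * ((𝐂[s]).relIndex (Oo 𝐂[t]) : ℚ) ^ 2 := by
    have := cardC_ne_zero (Oo 𝐂[t])
    push_cast at k
    field_simp at k
    exact_mod_cast (show ((𝐂[t]).index : ℂ) * V = 8 * ((𝐂[s]).relIndex (Oo 𝐂[t]) : ℂ) ^ 2 by
      linear_combination -k)
  have fin : ∀ a b c : ℤ, 1 + a + b + c = 0 → V = 1 + 1 / a + 1 / b + 1 / c →
      (a % 4 = 1 ∧ a ≠ 1 ∧ a ≠ -3) → (b % 4 = 1 ∧ b ≠ 1 ∧ b ≠ -3) → (c % 4 = 1 ∧ c ≠ 1 ∧ c ≠ -3) →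
      ∃ y₁ y₂ y₃ : ℤ, y₁ % 4 = 1 ∧ y₂ % 4 = 1 ∧ y₃ % 4 = 1 ∧ 1 + y₁ + y₂ + y₃ = 0 ∧
      (y₁ ≤ -7 ∨ 5 ≤ y₁) ∧ (y₂ ≤ -7 ∨ 5 ≤ y₂) ∧ (y₃ ≤ -7 ∨ 5 ≤ y₃) ∧
      ((𝐂[t]).index : ℤ) * ((y₁ + 1) * (y₂ + 1) * (y₃ + 1)) =
        8 * ((𝐂[s]).relIndex (Oo 𝐂[t]) : ℤ) ^ 2 * (y₁ * y₂ * y₃) := fun a b c e1 e2 ha hb hc => by
    refine ⟨a, b, c, ha.1, hb.1, hc.1, e1, by omega, by omega, by omega, ?_⟩
    have a0 : (a : ℚ) ≠ 0 := by exact_mod_cast (show a ≠ 0 by omega)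
    have b0 : (b : ℚ) ≠ 0 := by exact_mod_cast (show b ≠ 0 by omega)
    have c0 : (c : ℚ) ≠ 0 := by exact_mod_cast (show c ≠ 0 by omega)
    have e3 : (1 + a + b + c : ℚ) = 0 := by exact_mod_cast e1
    rw [e2] at k2
    field_simp at k2
    exact_mod_cast (show ((𝐂[t]).index : ℚ) * ((a + 1) * (b + 1) * (c + 1)) =
      8 * ((𝐂[s]).relIndex (Oo 𝐂[t]) : ℚ) ^ 2 * (a * b * c) by
        linear_combination k2 + ((𝐂[t]).index : ℚ) * e3)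
  have n : ∀ i, i ≠ j → X i % 4 = 1 ∧ X i ≠ 1 ∧ X i ≠ -3 := fun i a => ⟨(x3 i).1, x5 i a, (x3 i).2⟩
  simp only [Fin.sum_univ_four] at x1 x2
  fin_cases j <;> simp only [Fin.zero_eta, Fin.mk_one, Fin.reduceFinMk] at x4 n <;> rw [x4] at x1 x2
  · exact fin _ _ _ (by omega) (by rw [x2]; simp) (n 1 (by decide)) (n 2 (by decide)) (n 3 (by decide))
  · exact fin _ _ _ (by omega) (by rw [x2]; push_cast; ring) (n 0 (by decide)) (n 2 (by decide)) (n 3 (by decide))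
  · exact fin _ _ _ (by omega) (by rw [x2]; push_cast; ring) (n 0 (by decide)) (n 1 (by decide)) (n 3 (by decide))
  · exact fin _ _ _ (by omega) (by rw [x2]; push_cast; ring) (n 0 (by decide)) (n 1 (by decide)) (n 2 (by decide))

end VB

end Cfsg.Agent.AG
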