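import Cfsg.Agent.AG.VC1b

/-! Klein four Sylow `2`-subgroups: `O(C(S)) = 1`. -/

set_option autoImplicit false
set_option linter.unusedSectionVars false

namespace Cfsg.Agent.AG

open Subgroup Cfsg.Agent.FT Cfsg.Agent.MC Cfsg.Agent.H1
open scoped Classical ComplexConjugate commutatorElement

universe u
variable {G : Type u} [Group G] [Finite G] {S : Subgroup G} {t s x y g : G} {χ θ l : G → ℂ}

namespace VB

variable (h : VB S t s)
include h

theorem sK : zpowers s ≤ 𝐍(Oo 𝐂[t]) := zpowers_le.2 (h.sec.nrm (h.St h.sS))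

theorem nF : ⁅Oo 𝐂[t], zpowers s⁆ ⊴ Oo 𝐂[t] := ⟨commutator_le_left' h.sK, left_le_normalizer_commutator _ _⟩

theorem sinv (hθ : θ ∈ IrrK (Oo 𝐂[t]) ⁅Oo 𝐂[t], zpowers s⁆) : cjf s θ = θ :=
  cf_ext (cjf_mem_CF_norm (h.sK (mem_zpowers s)) (irr_CF (irrK_irr hθ))) (irr_CF (irrK_irr hθ)) fun x hx => by
    rw [cjf_apply, ← mem_cker.1 (irrK_ker hθ (commutator_mem_commutator hx (inv_mem (mem_zpowers s))))]
    simp [commutatorElement_def, mul_assoc]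

theorem nD : 𝐍(S) ≤ 𝐍(Oo 𝐂[t] ⊓ 𝐂[s]) := fun g hg => mem_normalizer_of_conj_mem fun x hx => by
  have a : g * x * g⁻¹ ∈ 𝐂(S) := conj_mem_of_mem_normalizer (normalizer_le_normalizer_centralizer S hg)
    (h.centS ▸ ⟨h.sec.cent hx.1, hx.2⟩)
  rw [h.centS] at a
  exact ⟨h.sec.all _ a.1 (by rw [Br.orderOf_cj]; exact JR.odd_orderOf h.sec.odd hx.1), a.2⟩

theorem fuse1 (hy : y ∈ 𝐂(S)) (hg : g * y * g⁻¹ ∈ 𝐂(S)) : ∃ n ∈ 𝐍(S), n * (g * y * g⁻¹) * n⁻¹ = y := by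
  have a : Syl 2 (cj g⁻¹ S) 𝐂[y] := (h.syl.cj_of_mem (mem_top g⁻¹)).of_le (cj_le_iff_le_cj_inv.2 (by
    rw [inv_inv, cj_cent1]; exact le_cent1_iff.2 hg)) le_top
  obtain ⟨c, c1, c2⟩ := (h.syl.of_le (le_cent1_iff.2 hy) le_top).exists_cj_eq a
  refine ⟨c * g⁻¹, cj_eq_iff_mem_normalizer.1 (by rw [cj_mul, c2]), ?_⟩
  calc _ = c * y * c⁻¹ := by group
    _ = y := mul_inv_eq_iff_eq_mul.2 (mem_cent1_iff.1 c1)

theorem fuse2 (hy : y ∈ 𝐂[t]) (hg : g * y * g⁻¹ ∈ 𝐂[t]) (h4 : ¬ 4 ∣ ♯𝐂[y]) :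
    ∃ n ∈ 𝐂[t], n * y * n⁻¹ = g * y * g⁻¹ := by
  obtain ⟨K, k1, -, -, -, -, k2⟩ := JR.OD h4 h.t2 (mem_cent1_comm.1 hy)
  obtain ⟨c, c1, c2⟩ := k2 (g⁻¹ * t * g⁻¹⁻¹) (by
    simpa [mul_assoc] using JR.cj_mem_cent1.1 (mem_cent1_comm.1 hg)) (JR.two_conj h.t2 _)
  refine ⟨g * c, mem_cent1_iff.2 (mul_inv_eq_iff_eq_mul.1 ?_), ?_⟩
  · calc _ = g * (c * t * c⁻¹) * g⁻¹ := by group
      _ = t := by rw [c2]; group
  · calc _ = g * (c * y * c⁻¹) * g⁻¹ := by group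
      _ = _ := by rw [mul_inv_eq_iff_eq_mul.2 (mem_cent1_iff.1 (k1 c1))]

theorem off2 (hχ : χ ∈ Irr ⊤) (hl : l ∈ Irr (Oo 𝐂[t])) (l1 : deg l = 1) (ls : cjf s l = l)
    (hθ : θ ∈ Irr (Oo 𝐂[t])) (h1 : cjf s θ ≠ θ) {b b' : ℤ} (e : bq (Oo 𝐂[t]) t χ θ = b)
    (e' : bq (Oo 𝐂[t]) t χ l = b') (ho : Odd b') : Even b := by
  set K := Oo 𝐂[t] with hK
  have θs := cjf_mem_Irr_norm (h.sK (mem_zpowers s)) hθ
  have ss : ∀ φ : G → ℂ, cjf s (cjf s φ) = φ := fun φ => by rw [← cjf_mul, h.fg.uu, cjf_one]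
  have i1 : ∀ γ ∈ 𝐂[t], ∀ y, (θ + cjf s θ) (γ * y * γ⁻¹) = (θ + cjf s θ) y := fun γ a y => by
    rw [← cjf_conj γ (θ + cjf s θ) y, h.cjf_all (add_mem (irr_CF hθ) (irr_CF θs)) (by
      rw [map_add, ss, add_comm]) a]
  let P : G → Prop := fun x => (∃ g, g * x * g⁻¹ ∈ K) ∧ ¬ 4 ∣ ♯𝐂[x]
  let a : G → ℂ := fun x => if c : P x then conj ((θ + cjf s θ) (c.1.choose * x * c.1.choose⁻¹)) else 0
  have cc : ∀ g x : G, ♯𝐂[g * x * g⁻¹] = ♯𝐂[x] := fun g x => by rw [← cj_cent1, card_cj]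
  have a1 : ∀ g x, g * x * g⁻¹ ∈ K → ¬ 4 ∣ ♯𝐂[x] → a x = conj ((θ + cjf s θ) (g * x * g⁻¹)) :=
    fun g x b c => by
      have p : P x := ⟨⟨g, b⟩, c⟩
      have d := p.1.choose_spec
      simp only [a, dif_pos p]
      generalize p.1.choose = k at d
      obtain ⟨n, n1, n2⟩ := h.fuse2 (g := k * g⁻¹) (h.sec.cent b) (by
        rw [show k * g⁻¹ * (g * x * g⁻¹) * (k * g⁻¹)⁻¹ = k * x * k⁻¹ by group]; exact h.sec.cent d) (cc g x ▸ c)
      rw [← i1 n n1 (g * x * g⁻¹), n2]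
      congr 2
      group
  have i2 : ∀ x, IsIntegral ℤ (conj ((θ + cjf s θ) x)) := fun x => isIntegral_aut (starRingEnd ℂ)
    ((isIntegral_char (irr_char hθ) x).add (isIntegral_char (irr_char θs) x))
  have k : ∀ ψ ∈ Irr K, EqA 2 (∑ c ∈ els (K : Set G), a c * ψ c) (♯K * (dot K ψ θ + dot K ψ (cjf s θ))) :=
    fun ψ hψ => by
      rw [← dot_add_right, dot, mul_inv_cancel_left₀ (cardC_ne_zero K)]
      refine eqA_sum fun c hc => ?_
      replace hc := mem_els.1 hc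
      by_cases d : 4 ∣ ♯𝐂[c]
      · obtain ⟨γ, g1, g2⟩ : ∃ γ ∈ 𝐂(zpowers t) ⊓ 𝐂[c], γ ∉ K ⊔ zpowers t := by
          refine SetLike.not_le_iff_exists.1 fun f => ?_
          have := ((JR.AG.two_dvd (a := 2) h.sim.isA (JR.two_zpowers h.t2) (zpowers_le.2
            (mem_cent1_comm.1 (h.sec.cent hc))) d).trans (card_dvd_of_le' f)).trans
            (card_sup_dvd (zpowers_le.2 (h.sec.nrm (mem_cent1_self t))))
          rw [Nat.card_zpowers, h.t2] at this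
          obtain ⟨j, hj⟩ := h.sec.odd
          rw [← hK] at hj
          omega
        have f := congrFun ((h.cjf_or (irr_CF hθ) (cent_zpowers t ▸ g1.1)).resolve_left fun f => g2 f.1) c
        rw [cjf_apply, mul_assoc, ← mem_cent1_iff.1 g1.2, inv_mul_cancel_left] at f
        simp only [a, dif_neg fun p : P c => p.2 d, zero_mul, Pi.add_apply, f]
        refine ⟨-(ψ c * conj (θ c)), ((isIntegral_char (irr_char hψ) c).mul (isIntegral_aut (starRingEnd ℂ)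
          (isIntegral_char (irr_char hθ) c))).neg, by rw [map_add]; ring⟩
      · rw [a1 1 c (by simpa using hc) d, mul_comm]
        simpa using EqA.refl _ _
  have := vc_M3 h.sec (a := a) hχ ⟨fun x hx => absurd (mem_top x) hx, fun g _ x => by
      by_cases p : P x
      · obtain ⟨⟨k, b⟩, c⟩ := p
        have d : k * g⁻¹ * (g * x * g⁻¹) * (k * g⁻¹)⁻¹ = k * x * k⁻¹ := by group
        rw [a1 k x b c, a1 (k * g⁻¹) _ (d ▸ b) (cc g x ▸ c), d]
      · have p' : ¬ P (g * x * g⁻¹) := fun ⟨⟨k, b⟩, c⟩ => p ⟨⟨k * g, by simpa [mul_assoc] using b⟩, cc g x ▸ c⟩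
        simp only [a, dif_neg p, dif_neg p']⟩
    (fun x => by
      simp only [a]
      split_ifs
      exacts [i2 _, isIntegral_zero])
    (fun x hx => by
      obtain ⟨⟨k, b⟩, -⟩ : P x := by_contra fun p => hx (dif_neg p)
      exact Br.orderOf_cj k x ▸ JR.odd_orderOf h.sec.odd b) hθ hl e e' (n := ♯K) (n' := 0)
    (by simpa [dot_irr_self hθ, dot_irr_ne hθ θs h1.symm] using k θ hθ)
    (by simpa [dot_irr_ne hl hθ fun e => h1 (e ▸ ls), dot_irr_ne hl θs fun e => h1 (by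
      rw [← e, ← ls, e, ss])] using k l hl)
  have o : Odd ♯K := h.sec.odd
  simpa [Int.even_mul, Int.not_even_iff_odd.2 ho, Nat.not_even_iff_odd.2 o, l1] using this

theorem D_bot (hU : ¬ Oo 𝐂[t] ≤ 𝐂[s]) (hi : ∀ x ∈ ⁅Oo 𝐂[t], zpowers s⁆, s * x * s⁻¹ = x⁻¹) :
    Oo 𝐂[t] ⊓ 𝐂[s] = ⊥ := by
  haveI := h.sim.simple
  have nF := h.nF
  have nD := h.nD
  have sinv := fun θ => h.sinv (θ := θ)
  set K := Oo 𝐂[t] with hK
  set F := ⁅K, zpowers s⁆ with hF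
  set D := K ⊓ 𝐂[s] with hD
  have FD : ∀ x ∈ F, x ∈ 𝐂[s] → x = 1 := fun x a b => JR.eq_one_of_odd (JR.odd_orderOf h.sec.odd (nF.le a)) (by
    have := hi x a
    rw [← mem_cent1_iff.1 b, mul_inv_cancel_right] at this
    exact mul_eq_one_iff_eq_inv.2 this)
  have sd : SDP F D K := ⟨by
    rw [sup_comm, hD, ← cent_zpowers]
    exact H2.centralizer_sup_commutator h.sK (by
      rw [Nat.card_zpowers, h.s2]; exact Nat.coprime_two_left.2 h.sec.odd) (Or.inr (odd_order_solvable h.sec.odd)),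
    le_bot_iff.1 fun x a => FD x a.1 a.2.2, inf_le_left.trans nF.norm⟩
  have DD := der_le D
  set E := F ⊔ ⁅D, D⁆ with hE
  have nE : E ⊴ K := nrm_of_der_le sd.der_le (sup_le nF.le (DD.trans inf_le_left))
  have ED : E ⊓ 𝐂[s] = ⁅D, D⁆ := le_antisymm (fun x ⟨a, b⟩ => by
    obtain ⟨f, f1, d, d1, rfl⟩ := (sd.sub le_rfl DD (DD.trans sd.norm)).mem_iff.1 a
    rwa [FD f f1 ((𝐂[s].mul_mem_cancel_right (DD d1).2).1 b), one_mul]) (le_inf le_sup_right (DD.trans inf_le_right))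
  have sE : s ∈ 𝐍(E) := normalizer_inf_le_sup _ _ ⟨right_le_normalizer_commutator _ _ (mem_zpowers s),
    cent_le_norm _ (le_cent1_iff.1 (DD.trans inf_le_right))⟩
  have FE : IrrK K E ⊆ IrrK K F := IrrK_anti le_sup_left
  obtain ⟨x, x1, x2, x3⟩ := h.ex hU
  have q : Sec3 K E t s := by
    refine ⟨h.sec, nE, sd.der_le, fun χ hχ l hl θ hθ h1 b b' e e' ho => ?_,
      fun l hl g hg => h.cjf_all (irr_CF (irrK_irr hl)) (sinv l (FE hl)) hg, h.s2, h.St h.sS,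
      h.ne, h.cnj, x, mem_sup_left x1, x2, x3⟩
    have ll := lin_of_irrK sd.der_le hl
    have l1 : deg l = 1 := by exact_mod_cast (irr_one (irrK_irr hl)).symm.trans ll.one
    by_cases c : cjf s θ = θ
    swap
    · exact h.off2 hχ (irrK_irr hl) l1 (sinv l (FE hl)) hθ c e e' ho
    let a : G → ℂ := fun x => if ∃ g, g * x * g⁻¹ ∈ ⁅D, D⁆ then 1 else 0
    have a0 : a ∈ CF ⊤ := ⟨fun x hx => absurd (mem_top x) hx, fun g _ x => if_congr
      ⟨fun ⟨k, b⟩ => ⟨k * g, by simpa [mul_assoc] using b⟩, fun ⟨k, b⟩ => ⟨k * g⁻¹, by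
        simpa [mul_assoc] using b⟩⟩ rfl rfl⟩
    have a1 : ∀ x, IsIntegral ℤ (a x) := fun x => by
      simp only [a]
      split_ifs
      exacts [isIntegral_one, isIntegral_zero]
    have DS : D ≤ 𝐂(S) := h.centS ▸ inf_le_inf_right _ h.sec.cent
    have k : ∀ ψ ∈ Irr K, cjf s ψ = ψ → EqA 2 (∑ c ∈ els (K : Set G), a c * ψ c) (♯E * dot E ψ (triv E)) :=
      fun ψ hψ d => by
        have d' : ∀ c, ψ (s * c * s⁻¹) = ψ c := fun c => by rw [← cjf_conj s ψ c, d]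
        refine (vc_pair h.s2 (h.sK (mem_zpowers s)) (fun x => (a1 x).mul (isIntegral_char (irr_char hψ) x))
          fun c _ => by rw [cfJ a0 (mem_top s), d']).trans ?_
        rw [dot_triv_right, mul_inv_cancel_left₀ (cardC_ne_zero E), ← sum_els_subset (A := (⁅D, D⁆ : Subgroup G)) DD _
          fun y b c => ?_, Finset.sum_congr rfl (g := ψ) fun y hy => ?_, ← ED]
        · exact (vc_pair h.s2 sE (isIntegral_char (irr_char hψ)) fun c _ => d' c).symm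
        · simp only [a]
          rw [if_pos ⟨1, by simpa using mem_els.1 hy⟩, one_mul]
        · simp only [a]
          rw [if_neg, zero_mul]
          rintro ⟨g, f⟩
          obtain ⟨n, n1, n2⟩ := h.fuse1 (DS b) (DS (DD f))
          exact c (n2 ▸ conj_mem_of_mem_normalizer (normalizer_le_normalizer_der D (nD n1)) f)
    have := vc_M3 h.sec hχ a0 a1 (fun x hx => by
        obtain ⟨g, b⟩ : ∃ g, g * x * g⁻¹ ∈ ⁅D, D⁆ := by_contra fun p => hx (if_neg p)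
        exact Br.orderOf_cj g x ▸ JR.odd_orderOf h.sec.odd (DD b).1) hθ (irrK_irr hl) e e' (n := 0) (n' := ♯E)
      (by simpa [not_not.1 fun e => h1 (mem_IrrK.2 ⟨hθ, le_cker_of_dot_triv nE hθ e⟩)] using k θ hθ c)
      (by simpa [dot_triv_of_le_cker (irrK_ker hl), ll.one] using k l (irrK_irr hl) (sinv l (FE hl)))
    simpa [Int.even_mul, Int.not_even_iff_odd.2 ho, Nat.not_even_iff_odd.2 (odd_of_le nE.le h.sec.odd),
      Nat.not_even_iff_odd.2 (odd_deg hθ h.sec.odd)] using this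
  have KE : K ≤ E := by
    by_contra k
    obtain ⟨χ, h1, h2⟩ := exists_irrK_not_le_cker nE le_rfl k
    exact h2 (q.triv_eq h1 ▸ le_cker_triv _)
  by_contra k
  exact (der_lt (odd_order_solvable (odd_of_le (inf_le_left : D ≤ K) h.sec.odd)) k).not_ge
    (ED ▸ inf_le_inf_right _ KE)

end VB

end Cfsg.Agent.AG
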